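import Mathlib

/-!
# The limit of a subspace under a one-parameter unipotent conjugation

For `y` with `y * y = 0` in an algebra over a field, `lim y L` is the space of leading coefficients of the
polynomials `(1 + X y) f (1 - X y)`, where all coefficients of `f` lie in `L`.
-/

set_option autoImplicit false

namespace Cfsg.Agent.Transfer.QuadLimit

open Polynomial

variable {k : Type*} [Field k] {R : Type*} [Ring R] [Algebra k R]

/-- Conjugation of a polynomial by `1 + X y`. -/
noncomputable def conjP (y : R) (f : R[X]) : R[X] := (1 + C y * X) * f * (1 - C y * X)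

theorem Yi_mul_Y {y : R} (hy : y * y = 0) : (1 - C y * X) * (1 + C y * X) = 1 := by
  have : C y * X * (C y * X) = 0 := by
    rw [mul_assoc, ← mul_assoc X, X_mul_C, ← mul_assoc, ← mul_assoc, ← C_mul, hy, C_0, zero_mul, zero_mul]
  rw [sub_mul, one_mul, mul_add, mul_one, this, add_zero, add_sub_cancel_right]

theorem Y_mul_Yi {y : R} (hy : y * y = 0) : (1 + C y * X) * (1 - C y * X) = 1 := by
  have h := Yi_mul_Y (y := -y) (by rw [neg_mul_neg, hy])
  simpa [sub_eq_add_neg] using h

theorem conjP_mul {y : R} (hy : y * y = 0) (f g : R[X]) : conjP y f * conjP y g = conjP y (f * g) := by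
  unfold conjP
  calc (1 + C y * X) * f * (1 - C y * X) * ((1 + C y * X) * g * (1 - C y * X))
      = (1 + C y * X) * f * ((1 - C y * X) * (1 + C y * X)) * g * (1 - C y * X) := by simp only [mul_assoc]
    _ = _ := by rw [Yi_mul_Y hy, mul_one]; simp only [mul_assoc]

theorem conjP_add (y : R) (f g : R[X]) : conjP y (f + g) = conjP y f + conjP y g := by
  simp [conjP, mul_add, add_mul]

theorem conjP_zero (y : R) : conjP y 0 = 0 := by simp [conjP]

theorem conjP_smul (y : R) (c : k) (f : R[X]) : conjP y (c • f) = c • conjP y f := by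
  simp [conjP]

theorem conjP_mul_X_pow (y : R) (f : R[X]) (n : ℕ) : conjP y (f * X ^ n) = conjP y f * X ^ n := by
  unfold conjP
  rw [mul_assoc _ (f * X ^ n), mul_assoc f, X_pow_mul, ← mul_assoc f, ← mul_assoc, ← mul_assoc]

theorem conjP_injective {y : R} (hy : y * y = 0) : Function.Injective (conjP y) := by
  intro f g h
  have h2 : ∀ f, (1 - C y * X) * conjP y f * (1 + C y * X) = f := fun f => by
    unfold conjP
    rw [← mul_assoc, ← mul_assoc, Yi_mul_Y hy, one_mul, mul_assoc, Yi_mul_Y hy, mul_one]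
  rw [← h2 f, h, h2]

/-- The coefficient formula. -/
theorem conjP_coeff (y : R) (f : R[X]) (n : ℕ) :
    (conjP y f).coeff (n + 2) = f.coeff (n + 2) + (y * f.coeff (n + 1) - f.coeff (n + 1) * y) - y * f.coeff n * y := by
  have e : conjP y f = f + (C y * (f * X) - (f * C y) * X) - (C y * f * C y) * X * X := by
    simp only [conjP, mul_sub, add_mul, one_mul, mul_one, mul_add, sub_mul, mul_assoc, X_mul, ]
    abel
  rw [e]
  simp only [coeff_sub, coeff_add, coeff_C_mul, coeff_mul_C, coeff_mul_X]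

theorem conjP_coeff_one (y : R) (f : R[X]) :
    (conjP y f).coeff 1 = f.coeff 1 + (y * f.coeff 0 - f.coeff 0 * y) := by
  have e : conjP y f = f + (C y * (f * X) - (f * C y) * X) - (C y * f * C y) * X * X := by
    simp only [conjP, mul_sub, add_mul, one_mul, mul_one, mul_add, sub_mul, mul_assoc, X_mul, ]
    abel
  rw [e]
  simp [coeff_mul_X_zero]

theorem conjP_coeff_zero (y : R) (f : R[X]) : (conjP y f).coeff 0 = f.coeff 0 := by
  simp [conjP, mul_coeff_zero]

/-- The predicate: `c` is the coefficient of `X ^ n` of an element of the family, of degree at most `n`. -/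
def IsLead (y : R) (L : Submodule k R) (c : R) (n : ℕ) : Prop :=
  ∃ f : R[X], (∀ i, f.coeff i ∈ L) ∧ (conjP y f).coeff n = c ∧ ∀ m, n < m → (conjP y f).coeff m = 0

theorem IsLead.shift {y : R} {L : Submodule k R} {c : R} {n : ℕ} (h : IsLead y L c n) (j : ℕ) :
    IsLead y L c (n + j) := by
  obtain ⟨f, hf, hc, hv⟩ := h
  refine ⟨f * X ^ j, fun i => ?_, ?_, fun m hm => ?_⟩
  · rw [coeff_mul_X_pow']
    split_ifs
    · exact hf _
    · exact zero_mem _
  · rw [conjP_mul_X_pow, coeff_mul_X_pow, hc]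
  · rw [conjP_mul_X_pow, coeff_mul_X_pow', if_pos (by omega)]
    exact hv _ (by omega)

/-- The limit subspace. -/
def lim (y : R) (L : Submodule k R) : Submodule k R where
  carrier := {c | ∃ n, IsLead y L c n}
  zero_mem' := ⟨0, 0, fun i => by simp, by simp [conjP_zero], fun m _ => by simp [conjP_zero]⟩
  add_mem' := by
    rintro a b ⟨n, hn⟩ ⟨m, hm⟩
    obtain ⟨f, hf, hfc, hfv⟩ := hn.shift m
    obtain ⟨g, hg, hgc, hgv⟩ := hm.shift n
    refine ⟨n + m, f + g, fun i => by rw [coeff_add]; exact add_mem (hf i) (hg i), ?_, fun i hi => ?_⟩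
    · rw [conjP_add, coeff_add, hfc, add_comm n m, hgc]
    · rw [conjP_add, coeff_add, hfv i hi, hgv i (by omega), add_zero]
  smul_mem' := by
    rintro c a ⟨n, f, hf, hfc, hfv⟩
    exact ⟨n, c • f, fun i => by rw [coeff_smul]; exact L.smul_mem _ (hf i),
      by rw [conjP_smul, coeff_smul, hfc], fun i hi => by rw [conjP_smul, coeff_smul, hfv i hi, smul_zero]⟩

theorem mem_lim {y : R} {L : Submodule k R} {c : R} : c ∈ lim y L ↔ ∃ n, IsLead y L c n := Iff.rfl

theorem lim_mono (y : R) {L L' : Submodule k R} (h : L ≤ L') : lim y L ≤ lim y L' := by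
  rintro c ⟨n, f, hf, hfc, hfv⟩
  exact ⟨n, f, fun i => h (hf i), hfc, hfv⟩

theorem lim_mul_eq_zero {y : R} (hy : y * y = 0) {L L' : Submodule k R} (h : ∀ a ∈ L, ∀ b ∈ L', a * b = 0)
    {c d : R} (hc : c ∈ lim y L) (hd : d ∈ lim y L') : c * d = 0 := by
  obtain ⟨n, f, hf, rfl, hfv⟩ := hc
  obtain ⟨m, g, hg, rfl, hgv⟩ := hd
  rw [← coeff_mul_add_eq_of_natDegree_le (natDegree_le_iff_coeff_eq_zero.mpr hfv)
    (natDegree_le_iff_coeff_eq_zero.mpr hgv), conjP_mul hy]
  have : f * g = 0 := by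
    ext i
    rw [coeff_mul, coeff_zero]
    exact Finset.sum_eq_zero fun x _ => h _ (hf _) _ (hg _)
  rw [this, conjP_zero, coeff_zero]

theorem lim_le_of_closed {y : R} {L F : Submodule k R} (hLF : L ≤ F)
    (h1 : ∀ z ∈ L, y * z - z * y ∈ F) (h2 : ∀ z ∈ L, y * z * y ∈ F) : lim y L ≤ F := by
  rintro c ⟨n, f, hf, rfl, -⟩
  match n with
  | 0 => rw [conjP_coeff_zero]; exact hLF (hf 0)
  | 1 => rw [conjP_coeff_one]; exact add_mem (hLF (hf 1)) (h1 _ (hf 0))
  | m + 2 => rw [conjP_coeff]; exact sub_mem (add_mem (hLF (hf _)) (h1 _ (hf _))) (h2 _ (hf _))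

theorem exists_preimage_C {y : R} (hy : y * y = 0) {W : Submodule k R} (h1 : ∀ z ∈ W, y * z - z * y ∈ W)
    (h2 : ∀ z ∈ W, y * z * y ∈ W) {w : R} (hw : w ∈ W) :
    ∃ f : R[X], (∀ i, f.coeff i ∈ W) ∧ conjP y f = C w := by
  refine ⟨conjP (-y) (C w), fun i => ?_, ?_⟩
  · have hC : ∀ j, (C w).coeff j ∈ W := fun j => by
      rw [coeff_C]; split_ifs
      · exact hw
      · exact zero_mem _
    have e1 : ∀ z : R, -y * z - z * -y = -(y * z - z * y) := fun z => by rw [neg_mul, mul_neg]; abel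
    have e2 : ∀ z : R, -y * z * -y = y * z * y := fun z => by simp
    match i with
    | 0 => rw [conjP_coeff_zero]; exact hC 0
    | 1 => rw [conjP_coeff_one, e1]; exact add_mem (hC 1) (neg_mem (h1 _ (hC 0)))
    | m + 2 => rw [conjP_coeff, e1, e2]; exact sub_mem (add_mem (hC _) (neg_mem (h1 _ (hC _)))) (h2 _ (hC _))
  · have hneg : (1 - C (-y) * X : R[X]) = 1 + C y * X := by simp
    have hneg' : (1 + C (-y) * X : R[X]) = 1 - C y * X := by simp [sub_eq_add_neg]
    unfold conjP
    rw [hneg, hneg', ← mul_assoc, ← mul_assoc, Y_mul_Yi hy, one_mul, mul_assoc, Y_mul_Yi hy, mul_one]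

theorem mem_lim_of_invariant {y : R} (hy : y * y = 0) {W : Submodule k R} (h1 : ∀ z ∈ W, y * z - z * y ∈ W)
    (h2 : ∀ z ∈ W, y * z * y ∈ W) {w : R} (hw : w ∈ W) : w ∈ lim y W := by
  obtain ⟨f, hf, e⟩ := exists_preimage_C hy h1 h2 hw
  refine ⟨0, f, hf, by rw [e, coeff_C_zero], fun m hm => ?_⟩
  rw [e, coeff_C, if_neg (by omega)]

/-- A polynomial with the given coefficients. -/
noncomputable def ofVec {L : Submodule k R} (d : ℕ) : (Fin d → L) →ₗ[k] R[X] where
  toFun v := ∑ i : Fin d, monomial (i : ℕ) (v i : R)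
  map_add' v w := by simp [Finset.sum_add_distrib]
  map_smul' c v := by
    simp only [Pi.smul_apply, SetLike.val_smul, Finset.smul_sum, smul_monomial, RingHom.id_apply]

theorem ofVec_coeff_mem {L : Submodule k R} (d : ℕ) (v : Fin d → L) (j : ℕ) : (ofVec d v).coeff j ∈ L := by
  rw [show ofVec d v = ∑ i : Fin d, monomial (i : ℕ) (v i : R) from rfl, finsetSum_coeff]
  refine sum_mem fun i _ => ?_
  rw [coeff_monomial]; split_ifs
  · exact (v i).2
  · exact zero_mem _

theorem ofVec_coeff {L : Submodule k R} (d : ℕ) (v : Fin d → L) (i : Fin d) :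
    (ofVec d v).coeff i = v i := by
  rw [show ofVec d v = ∑ i : Fin d, monomial (i : ℕ) (v i : R) from rfl, finsetSum_coeff,
    Finset.sum_eq_single i (fun j _ hj => by rw [coeff_monomial, if_neg (fun h => hj (Fin.ext h))])
    (fun h => absurd (Finset.mem_univ i) h), coeff_monomial, if_pos rfl]

theorem ofVec_coeff_eq_zero {L : Submodule k R} (d : ℕ) (v : Fin d → L) {j : ℕ} (hj : d ≤ j) :
    (ofVec d v).coeff j = 0 := by
  rw [show ofVec d v = ∑ i : Fin d, monomial (i : ℕ) (v i : R) from rfl, finsetSum_coeff]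
  refine Finset.sum_eq_zero fun i _ => ?_
  rw [coeff_monomial, if_neg (by omega)]

theorem finrank_vanishing [FiniteDimensional k R] {y : R} {L : Submodule k R} :
    ∀ (N : ℕ) {d : ℕ} (Q : Submodule k (Fin d → L)),
      (∀ v ∈ Q, (∀ m, (conjP y (ofVec (k := k) (L := L) d v)).coeff m = 0) → v = 0) →
      (∀ v ∈ Q, ∀ m, N ≤ m → (conjP y (ofVec (k := k) (L := L) d v)).coeff m = 0) →
      Module.finrank k Q ≤ N * Module.finrank k (lim y L) := by
  intro N
  induction N with
  | zero =>
    intro d Q hinj hQ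
    have : Q = ⊥ := (Submodule.eq_bot_iff Q).mpr fun v hv => hinj v hv fun m => hQ v hv m (Nat.zero_le m)
    rw [this, finrank_bot, zero_mul]
  | succ N ih =>
    intro d Q hinj hQ
    let T : ↥Q →ₗ[k] ↥(lim y L) :=
      { toFun := fun v => ⟨(conjP y (ofVec (k := k) (L := L) d (v : Fin d → ↥L))).coeff N,
          mem_lim.mpr ⟨N, ofVec (k := k) (L := L) d (v : Fin d → ↥L), ofVec_coeff_mem (L := L) d _, rfl, fun m hm => hQ _ v.2 m hm⟩⟩
        map_add' := fun v w => Subtype.ext (by simp [conjP_add])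
        map_smul' := fun c v => Subtype.ext (by simp [conjP_smul]) }
    have hk := ih ((LinearMap.ker T).map Q.subtype) ?_ ?_
    · rw [(Submodule.equivMapOfInjective Q.subtype Q.injective_subtype (LinearMap.ker T)).finrank_eq.symm] at hk
      have h1 := LinearMap.finrank_range_add_finrank_ker (K := k) (V := ↥Q) (V₂ := ↥(lim y L)) T
      have h2 := Submodule.finrank_le (LinearMap.range T)
      rw [add_one_mul]
      omega
    · rintro v ⟨w, -, rfl⟩ hv
      exact hinj _ w.2 hv
    · rintro v ⟨w, hw, rfl⟩ m hm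
      rcases hm.eq_or_lt with h | h
      · subst h
        exact congrArg Subtype.val (LinearMap.mem_ker.mp hw)
      · exact hQ _ w.2 m h

theorem finrank_le_finrank_lim [FiniteDimensional k R] {y : R} (hy : y * y = 0) (L : Submodule k R) :
    Module.finrank k L ≤ Module.finrank k (lim y L) := by
  set l := Module.finrank k (lim y L)
  set r := Module.finrank k L
  by_contra hlt
  set d := 2 * l + 1
  have h := finrank_vanishing (y := y) (L := L) (d + 2) (d := d) ⊤ ?_ ?_
  · rw [finrank_top, Module.finrank_pi_fintype, Finset.sum_const, Finset.card_univ, Fintype.card_fin,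
      smul_eq_mul] at h
    change d * r ≤ (d + 2) * l at h
    have h3 : d * (l + 1) ≤ d * r := Nat.mul_le_mul_left _ (by omega)
    have hd : d = 2 * l + 1 := rfl
    linarith [Nat.add_mul d 2 l, Nat.mul_add d l 1, hd]
  · intro v _ hv
    have h0 : conjP y (ofVec (k := k) (L := L) d v) = conjP y 0 := by
      rw [conjP_zero]; ext m; rw [hv m, coeff_zero]
    funext i
    apply Subtype.ext
    rw [← ofVec_coeff d v i, conjP_injective hy h0, coeff_zero]
    rfl
  · intro v _ m hm
    obtain ⟨j, rfl⟩ : ∃ j, m = j + 2 := ⟨m - 2, by omega⟩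
    rw [conjP_coeff, ofVec_coeff_eq_zero d v (by omega), ofVec_coeff_eq_zero d v (by omega),
      ofVec_coeff_eq_zero d v (by omega)]
    simp

/-- The new leading coefficient. -/
theorem exists_new_mem {y : R} {L W F : Submodule k R} (hWL : W ≤ L) {x : R} (hx : x ∈ L)
    (h1 : y * x - x * y ∈ F) (h2 : y * x * y ∈ F) (hn : y * x - x * y ∉ W)
    (hW1 : ∀ z ∈ W, y * z - z * y ∈ W) (hW2 : ∀ z ∈ W, y * z * y ∈ W) (hy : y * y = 0) :
    ∃ c ∈ lim y L, c ∈ F ∧ c ∉ W := by
  by_cases hy2 : y * x * y ∈ W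
  · refine ⟨y * x - x * y, ?_, h1, hn⟩
    obtain ⟨g, hg, hge⟩ := exists_preimage_C hy hW1 hW2 hy2
    refine mem_lim.mpr ⟨1, C x + g * X ^ 2, fun i => ?_, ?_, fun m hm => ?_⟩
    · rw [coeff_add, coeff_mul_X_pow', coeff_C]
      refine add_mem ?_ ?_
      · split_ifs <;> first | exact hx | exact zero_mem _
      · split_ifs
        · exact hWL (hg _)
        · exact zero_mem _
    · rw [conjP_add, conjP_mul_X_pow, coeff_add, coeff_mul_X_pow', if_neg (by omega), add_zero, conjP_coeff_one,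
        coeff_C, coeff_C, if_neg one_ne_zero, if_pos rfl, zero_add]
    · obtain ⟨j, rfl⟩ : ∃ j, m = j + 2 := ⟨m - 2, by omega⟩
      rw [conjP_add, conjP_mul_X_pow, coeff_add, coeff_mul_X_pow, hge, conjP_coeff, coeff_C, coeff_C, coeff_C, coeff_C,
        if_neg (by omega : ¬ j + 2 = 0), if_neg (by omega : ¬ j + 1 = 0)]
      split_ifs <;> simp [sub_eq_add_neg]
  · refine ⟨-(y * x * y), ?_, neg_mem h2, fun h => hy2 ((W.neg_mem_iff).mp h)⟩
    refine mem_lim.mpr ⟨2, C x, fun i => ?_, ?_, fun m hm => ?_⟩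
    · rw [coeff_C]; split_ifs <;> first | exact hx | exact zero_mem _
    · rw [show (2 : ℕ) = 0 + 2 from rfl, conjP_coeff, coeff_C, coeff_C, coeff_C]
      simp
    · obtain ⟨j, rfl⟩ : ∃ j, m = j + 2 := ⟨m - 2, by omega⟩
      rw [conjP_coeff, coeff_C, coeff_C, coeff_C, if_neg (by omega), if_neg (by omega), if_neg (by omega)]
      simp

end Cfsg.Agent.Transfer.QuadLimit
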