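import Cfsg.Agent.Transfer.QuadLimit.Logs
import Cfsg.Agent.Transfer.QuadLimit.Limit

/-!
# Quadratic offenders which are normal in their normal closure

For a finite `p`-group (`p ≥ 5`) of invertible elements of `End W`, among the linearized quadratic offenders one
that is deepest in the filtration by powers of the augmentation ideal is normalized by its normal closure.
-/

set_option autoImplicit false
set_option linter.unusedSectionVars false

namespace Cfsg.Agent.Transfer.QuadLimit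

section Ideals

variable {k : Type*} [CommSemiring k] {R : Type*} [Semiring R] [Algebra k R]

theorem mulL {M N P : Submodule k R} (h : M ≤ N) : M * P ≤ N * P := Submodule.mul_le.mpr fun _ ha _ hb => Submodule.mul_mem_mul (h ha) hb

theorem mulR {M N P : Submodule k R} (h : M ≤ N) : P * M ≤ P * N := Submodule.mul_le.mpr fun _ ha _ hb => Submodule.mul_mem_mul ha (h hb)

theorem sup_pow_le {X Y : Submodule k R} (h0 : X * X = ⊥) (hXY : X * Y ≤ X ⊓ Y) (hYX : Y * X ≤ X ⊓ Y)
    (hYY : Y * Y ≤ Y) : ∀ n : ℕ, (X ⊔ Y) ^ (n + 2) ≤ Y ^ (n + 2) ⊔ (X ⊓ Y ^ (n + 1)) := by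
  intro n
  induction n with
  | zero =>
    rw [pow_two, pow_two, pow_one, Submodule.sup_mul, Submodule.mul_sup, Submodule.mul_sup, h0, bot_sup_eq]
    exact sup_le (hXY.trans le_sup_right) (sup_le (hYX.trans le_sup_right) le_sup_left)
  | succ n ih =>
    have hpow : ∀ m : ℕ, Y ^ (m + 1) ≤ Y := by
      intro m
      induction m with
      | zero => rw [pow_one]
      | succ m ihm =>
        rw [pow_succ]
        exact (mulL ihm).trans hYY
    rw [pow_succ]
    refine (mulL ih).trans ?_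
    rw [Submodule.sup_mul, Submodule.mul_sup, Submodule.mul_sup]
    refine sup_le (sup_le ?_ ?_) (sup_le ?_ ?_)
    · refine le_sup_of_le_right (le_inf ?_ ?_)
      · exact (mulL (hpow _)).trans (hYX.trans inf_le_left)
      · rw [pow_succ Y (n + 1), mul_assoc]
        refine (mulR (hYX.trans inf_le_right)).trans (le_of_eq ?_)
        rw [← pow_succ]
    · rw [← pow_succ]; exact le_sup_left
    · exact (mulL inf_le_left).trans (h0 ▸ bot_le)
    · refine le_sup_of_le_right (le_inf ?_ ?_)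
      · exact (mulL inf_le_left).trans (hXY.trans inf_le_left)
      · rw [pow_succ Y (n + 1)]
        exact mulL inf_le_right

theorem three_pow_four {X Y Z : Submodule k R} (hX : X * X = ⊥) (hY : Y * Y = ⊥) (hZ : Z * Z = ⊥)
    (hXY : X * Y ≤ X ⊓ Y) (hYX : Y * X ≤ X ⊓ Y) (hXZ : X * Z ≤ X ⊓ Z) (hZX : Z * X ≤ X ⊓ Z)
    (hYZ : Y * Z ≤ Y ⊓ Z) (hZY : Z * Y ≤ Y ⊓ Z) : (X ⊔ (Y ⊔ Z)) ^ 4 = ⊥ := by
  have h3 : (Y ⊔ Z) ^ 3 = ⊥ := by
    refine le_bot_iff.mp ((sup_pow_le hY hYZ hZY (hZ ▸ bot_le) 1).trans ?_)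
    rw [pow_succ Z 2, pow_two, hZ, Submodule.bot_mul, bot_sup_eq]
    exact inf_le_right
  have hsq : (Y ⊔ Z) * (Y ⊔ Z) ≤ Y ⊔ Z := by
    rw [Submodule.sup_mul, Submodule.mul_sup, Submodule.mul_sup, hY, hZ, bot_sup_eq, sup_bot_eq]
    exact sup_le ((hYZ.trans inf_le_left).trans le_sup_left) ((hZY.trans inf_le_right).trans le_sup_right)
  refine le_bot_iff.mp ((sup_pow_le hX ?_ ?_ hsq 2).trans ?_)
  · rw [Submodule.mul_sup]
    exact sup_le (hXY.trans (inf_le_inf_left _ le_sup_left)) (hXZ.trans (inf_le_inf_left _ le_sup_right))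
  · rw [Submodule.sup_mul]
    exact sup_le (hYX.trans (inf_le_inf_left _ le_sup_left)) (hZX.trans (inf_le_inf_left _ le_sup_right))
  · rw [pow_succ _ 3, h3, Submodule.bot_mul, bot_sup_eq]
    exact inf_le_right

end Ideals

variable {p : ℕ} [Fact p.Prime] {W : Type*} [AddCommGroup W] [Module (ZMod p) W] [Finite W]
variable {Γ : Type*} [Group Γ] [Finite Γ] (ρ : Γ →* Module.End (ZMod p) W)

local notation "End'" => Module.End (ZMod p) W

/-- The augmentation ideal of the image. -/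
def aug : Submodule (ZMod p) End' := Submodule.span (ZMod p) (Set.range fun g => ρ g - 1)

theorem sub_one_mem_aug (g : Γ) : ρ g - 1 ∈ aug ρ := Submodule.subset_span ⟨g, rfl⟩

theorem aug_mul_rho {z : End'} (hz : z ∈ aug ρ) (h : Γ) : z * ρ h ∈ aug ρ := by
  induction hz using Submodule.span_induction with
  | mem x hx =>
    obtain ⟨g, rfl⟩ := hx
    have e : (ρ g - 1) * ρ h = (ρ (g * h) - 1) - (ρ h - 1) := by rw [sub_mul, one_mul, map_mul]; abel
    rw [e]
    exact sub_mem (sub_one_mem_aug ρ _) (sub_one_mem_aug ρ _)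
  | zero => rw [zero_mul]; exact zero_mem _
  | add x y _ _ hx hy => rw [add_mul]; exact add_mem hx hy
  | smul c x _ hx => rw [smul_mul_assoc]; exact Submodule.smul_mem _ _ hx

theorem aug_mul_aug : aug ρ * aug ρ ≤ aug ρ := by
  refine Submodule.mul_le.mpr fun a ha b hb => ?_
  induction hb using Submodule.span_induction with
  | mem x hx =>
    obtain ⟨g, rfl⟩ := hx
    simp only [mul_sub, mul_one]
    exact sub_mem (aug_mul_rho ρ ha g) ha
  | zero => rw [mul_zero]; exact zero_mem _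
  | add x y _ _ hx hy => rw [mul_add]; exact add_mem hx hy
  | smul c x _ hx => rw [mul_smul_comm]; exact Submodule.smul_mem _ _ hx

/-- A `p`-group has nilpotent augmentation ideal on the module. -/
theorem exists_aug_pow_eq_bot (hΓ : IsPGroup p Γ) : ∃ m : ℕ, aug ρ ^ (m + 1) = ⊥ := by
  classical
  let K : ℕ → Submodule (ZMod p) W := fun i => ⨅ z : ↥(aug ρ ^ (i + 1)), LinearMap.ker (z : End')
  have hstep : ∀ i, K i ≠ ⊤ → K i < K (i + 1) := by
    intro i hi
    have hmem : ∀ {w}, w ∈ K i ↔ ∀ z ∈ aug ρ ^ (i + 1), z w = 0 := by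
      intro w
      simp only [K, Submodule.mem_iInf, LinearMap.mem_ker, Subtype.forall]
    have hle : K i ≤ K (i + 1) := by
      intro w hw
      simp only [K, Submodule.mem_iInf, LinearMap.mem_ker, Subtype.forall]
      intro z hz
      have : aug ρ ^ (i + 1 + 1) ≤ aug ρ ^ (i + 1) := by
        rw [pow_succ, pow_succ, mul_assoc]
        exact mulR (aug_mul_aug ρ)
      exact hmem.mp hw z (this hz)
    -- the invariant subspace
    have hinv : ∀ g : Γ, K i ≤ (K i).comap (ρ g) := by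
      intro g w hw
      refine Submodule.mem_comap.mpr (hmem.mpr fun z hz => ?_)
      have hz' : z * ρ g ∈ aug ρ ^ (i + 1) := by
        rw [pow_succ] at hz ⊢
        refine Submodule.mul_induction_on hz (fun a ha b hb => ?_) fun a b ha hb => by rw [add_mul]; exact add_mem ha hb
        rw [mul_assoc]
        exact Submodule.mul_mem_mul ha (aug_mul_rho ρ hb g)
      exact hmem.mp hw _ hz'
    let act : Γ → W ⧸ K i → W ⧸ K i := fun g => (K i).mapQ (K i) (ρ g) (hinv g)
    letI : MulAction Γ (W ⧸ K i) :=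
      { smul := act
        one_smul := fun q => by
          obtain ⟨w, rfl⟩ := Submodule.Quotient.mk_surjective _ q
          show act 1 _ = _
          simp [act]
        mul_smul := fun g h q => by
          obtain ⟨w, rfl⟩ := Submodule.Quotient.mk_surjective _ q
          show act (g * h) _ = act g (act h _)
          simp [act] }
    haveI : Nontrivial (W ⧸ K i) := Submodule.Quotient.nontrivial_iff.mpr hi
    haveI : Finite (W ⧸ K i) := Finite.of_surjective _ (Submodule.Quotient.mk_surjective _)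
    have hdvd : p ∣ Nat.card (W ⧸ K i) := by
      rw [Module.natCard_eq_pow_finrank (K := ZMod p), Nat.card_zmod]
      exact dvd_pow_self _ (Module.finrank_pos).ne'
    obtain ⟨b, hb, hb0⟩ := hΓ.exists_fixed_point_of_prime_dvd_card_of_fixed_point (W ⧸ K i) hdvd
      (a := 0) (fun g => by show act g 0 = 0; simp [act])
    obtain ⟨v, rfl⟩ := Submodule.Quotient.mk_surjective _ b
    refine lt_of_le_of_ne hle fun heq => hb0 ?_
    have hv : v ∈ K (i + 1) := by
      simp only [K, Submodule.mem_iInf, LinearMap.mem_ker, Subtype.forall]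
      intro z hz
      rw [pow_succ] at hz
      refine Submodule.mul_induction_on hz (fun a ha b' hb' => ?_) fun x y hx hy => by
        rw [LinearMap.add_apply, hx, hy, add_zero]
      have hb'v : b' v ∈ K i := by
        induction hb' using Submodule.span_induction with
        | mem x hx =>
          obtain ⟨g, rfl⟩ := hx
          have := hb g
          change act g (Submodule.Quotient.mk v) = Submodule.Quotient.mk v at this
          simp only [act, Submodule.mapQ_apply, Submodule.Quotient.eq] at this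
          simpa using this
        | zero => simp
        | add x y _ _ hx hy => rw [LinearMap.add_apply]; exact add_mem hx hy
        | smul c x _ hx => rw [LinearMap.smul_apply]; exact Submodule.smul_mem _ _ hx
      exact hmem.mp hb'v a ha
    rw [← heq] at hv
    exact ((Submodule.Quotient.mk_eq_zero _).mpr hv).symm
  by_contra hcon
  push Not at hcon
  have htop : ∀ i, K i ≠ ⊤ := by
    intro i hi
    apply hcon i
    refine (Submodule.eq_bot_iff _).mpr fun z hz => LinearMap.ext fun w => ?_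
    have hw : w ∈ K i := hi ▸ Submodule.mem_top
    simp only [K, Submodule.mem_iInf, LinearMap.mem_ker, Subtype.forall] at hw
    exact hw z hz
  have hsm : StrictMono K := strictMono_nat_of_lt_succ fun i => hstep i (htop i)
  exact not_injective_infinite_finite K hsm.injective

/-- A linearized quadratic offender. -/
def IsLO (L : Submodule (ZMod p) End') : Prop :=
  L ≠ ⊥ ∧ (∀ x ∈ L, ∀ z ∈ L, x * z = 0) ∧ (∀ x ∈ L, ∃ g, ρ g = 1 + x) ∧
    Module.finrank (ZMod p) W ≤
      Module.finrank (ZMod p) L + Module.finrank (ZMod p) ↥(⨅ x : ↥L, LinearMap.ker (x : End'))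

/-- The annihilator of a subspace. -/
def annR (L : Submodule (ZMod p) End') : Submodule (ZMod p) End' where
  carrier := {r | ∀ x ∈ L, x * r = 0}
  zero_mem' := fun x _ => mul_zero x
  add_mem' := fun ha hb x hx => by rw [mul_add, ha x hx, hb x hx, add_zero]
  smul_mem' := fun c r hr x hx => by rw [mul_smul_comm, hr x hx, smul_zero]

/-- The annihilator consists of the maps into the common kernel. -/
def annREquiv (L : Submodule (ZMod p) End') :
    annR L ≃ₗ[ZMod p] (W →ₗ[ZMod p] ↥(⨅ x : ↥L, LinearMap.ker (x : End'))) where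
  toFun r := LinearMap.codRestrict _ (r : End') fun w => by
    rw [Submodule.mem_iInf]
    intro x
    exact LinearMap.congr_fun (r.2 x x.2) w
  map_add' r r' := by ext; rfl
  map_smul' c r := by ext; rfl
  invFun f := ⟨(Submodule.subtype _).comp f, fun x hx => LinearMap.ext fun w =>
    (Submodule.mem_iInf _).mp (f w).2 ⟨x, hx⟩⟩
  left_inv r := by ext; rfl
  right_inv f := by ext; rfl

theorem finrank_annR (L : Submodule (ZMod p) End') : Module.finrank (ZMod p) (annR L) =
    Module.finrank (ZMod p) W * Module.finrank (ZMod p) ↥(⨅ x : ↥L, LinearMap.ker (x : End')) := by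
  rw [(annREquiv L).finrank_eq, Module.finrank_linearMap]

/-- The limit of a linearized offender keeps the offender inequality. -/
theorem offender_lim {y : End'} (hy : y * y = 0) {L : Submodule (ZMod p) End'}
    (hL : Module.finrank (ZMod p) W ≤
      Module.finrank (ZMod p) L + Module.finrank (ZMod p) ↥(⨅ x : ↥L, LinearMap.ker (x : End'))) :
    Module.finrank (ZMod p) W ≤ Module.finrank (ZMod p) (lim y L) +
      Module.finrank (ZMod p) ↥(⨅ x : ↥(lim y L), LinearMap.ker (x : End')) := by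
  haveI : FiniteDimensional (ZMod p) W := Module.Finite.of_finite
  have h1 := finrank_le_finrank_lim hy L
  have h2 := finrank_le_finrank_lim hy (annR L)
  have h3 : lim y (annR L) ≤ annR (lim y L) := fun r hr x hx =>
    lim_mul_eq_zero hy (fun a ha b (hb : b ∈ annR L) => (show ∀ x ∈ L, x * b = 0 from hb) a ha) hx hr
  have h4 := h2.trans (Submodule.finrank_mono h3)
  rw [finrank_annR, finrank_annR] at h4
  rcases Nat.eq_zero_or_pos (Module.finrank (ZMod p) W) with h | h
  · omega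
  · have := Nat.le_of_mul_le_mul_left h4 h
    omega

theorem exists_normal_in_closure (hp : 5 ≤ p) (hρ : Function.Injective ρ) (hΓ : IsPGroup p Γ)
    (hex : ∃ L, IsLO ρ L) : ∃ L, IsLO ρ L ∧
      ∀ n ∈ Subgroup.closure {d : Γ | ∃ h a, ρ a - 1 ∈ L ∧ d = h * a * h⁻¹}, ∀ x ∈ L, ρ n * x * ρ n⁻¹ ∈ L := by
  classical
  haveI : FiniteDimensional (ZMod p) W := Module.Finite.of_finite
  haveI : Finite End' := Finite.of_injective (fun f : End' => (f : W → W)) DFunLike.coe_injective
  haveI : Finite (Submodule (ZMod p) End') :=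
    Finite.of_injective (fun L : Submodule (ZMod p) End' => (L : Set End')) SetLike.coe_injective
  obtain ⟨m, hm⟩ := exists_aug_pow_eq_bot ρ hΓ
  let score : Submodule (ZMod p) End' → ℕ := fun L =>
    ∑ j ∈ Finset.range (m + 1), Module.finrank (ZMod p) ↥(L ⊓ aug ρ ^ (j + 1))
  haveI : Nonempty {L // IsLO ρ L} := let ⟨L, h⟩ := hex; ⟨⟨L, h⟩⟩
  obtain ⟨⟨L, hL⟩, hmax⟩ := Finite.exists_max fun L : {L // IsLO ρ L} => score L.1
  refine ⟨L, hL, ?_⟩
  obtain ⟨hL0, hLz, hLg, hLc⟩ := hL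
  -- the normalizing subgroup
  let N : Subgroup Γ :=
    { carrier := {n | ∀ x, x ∈ L ↔ ρ n * x * ρ n⁻¹ ∈ L}
      one_mem' := fun x => by simp
      mul_mem' := fun {a b} ha hb x => by
        rw [hb x, ha]
        simp [mul_assoc]
      inv_mem' := fun {a} ha x => by
        rw [ha (ρ a⁻¹ * x * ρ a⁻¹⁻¹)]
        simp [mul_assoc, ← map_mul]
        rw [← mul_assoc, ← map_mul]
        simp }
  set D := {d : Γ | ∃ h a, ρ a - 1 ∈ L ∧ d = h * a * h⁻¹} with hD
  suffices hDN : D ⊆ N by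
    intro n hn x hx
    exact ((Subgroup.closure_le N).mpr hDN hn x).mp hx
  by_contra hDN
  set K := Subgroup.closure (D ∩ (N : Set Γ)) with hK
  have hKN : K ≤ N := (Subgroup.closure_le N).mpr Set.inter_subset_right
  have hDconj : ∀ g : Γ, ∀ d ∈ D, g * d * g⁻¹ ∈ D := by
    rintro g _ ⟨h, a, ha, rfl⟩
    exact ⟨g * h, a, ha, by group⟩
  -- some conjugate outside `K` normalizes `K`
  obtain ⟨d, hdD, hdK, hdn⟩ : ∃ d ∈ D, d ∉ K ∧ d ∈ Subgroup.normalizer (K : Set Γ) := by
    by_contra hcon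
    push Not at hcon
    have hsub : ∀ d ∈ D, d ∈ Subgroup.normalizer (K : Set Γ) → d ∈ K := fun d h1 h2 =>
      by_contra fun h3 => hcon d h1 h3 h2
    haveI := hΓ.isNilpotent
    have htop : Subgroup.normalizer (K : Set Γ) = ⊤ := by
      refine normalizerCondition_iff_only_full_group_self_normalizing.mp normalizerCondition_of_isNilpotent _ ?_
      refine le_antisymm (fun n hn => ?_) Subgroup.le_normalizer
      have key : ∀ n ∈ Subgroup.normalizer ((Subgroup.normalizer (K : Set Γ) : Subgroup Γ) : Set Γ),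
          K ≤ K.comap (MulAut.conj n).toMonoidHom := by
        intro n hn
        conv_lhs => rw [hK]
        refine (Subgroup.closure_le _).mpr fun d hd => ?_
        refine hsub _ (hDconj n d hd.1) ?_
        exact (Subgroup.mem_normalizer_iff.mp hn d).mp (Subgroup.le_normalizer (Subgroup.subset_closure hd))
      rw [Subgroup.mem_normalizer_iff]
      intro g
      refine ⟨fun hg => key n hn hg, fun hg => ?_⟩
      have := key n⁻¹ (inv_mem hn) hg
      simpa [Subgroup.mem_comap, mul_assoc] using this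
    apply hDN
    intro d hd
    exact hKN (hsub d hd (htop ▸ Subgroup.mem_top d))
  have hdN : d ∉ N := fun h => hdK (Subgroup.subset_closure ⟨hdD, h⟩)
  set y := ρ d - 1 with hy_def
  have hρd : ρ d = 1 + y := by rw [hy_def, add_sub_cancel]
  have hy : y * y = 0 := by
    obtain ⟨h, a, ha, rfl⟩ := hdD
    have e : y = ρ h * (ρ a - 1) * ρ h⁻¹ := by
      rw [hy_def, mul_sub, sub_mul, mul_one, map_mul, map_mul, ← map_mul ρ h h⁻¹, mul_inv_cancel, map_one]
    rw [e, show ρ h * (ρ a - 1) * ρ h⁻¹ * (ρ h * (ρ a - 1) * ρ h⁻¹) =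
      ρ h * ((ρ a - 1) * (ρ h⁻¹ * ρ h) * (ρ a - 1)) * ρ h⁻¹ by simp only [mul_assoc],
      ← map_mul, inv_mul_cancel, map_one, mul_one, hLz _ ha _ ha, mul_zero, zero_mul]
  have hρd' : ρ d⁻¹ = 1 - y := by
    have h1 : ρ d⁻¹ * ρ d = 1 := by rw [← map_mul, inv_mul_cancel, map_one]
    calc ρ d⁻¹ = ρ d⁻¹ * (ρ d * (1 - y)) := by
          rw [hρd, mul_sub, mul_one, add_mul, one_mul, hy, add_zero, add_sub_cancel_right, mul_one]
      _ = 1 - y := by rw [← mul_assoc, h1, one_mul]
  -- the base group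
  let A : Subgroup Γ :=
    { carrier := {a | ρ a - 1 ∈ L}
      one_mem' := by simp
      mul_mem' := fun {a b} ha hb => by
        show ρ (a * b) - 1 ∈ L
        have e : ρ (a * b) - 1 = (ρ a - 1) + (ρ b - 1) + (ρ a - 1) * (ρ b - 1) := by
          simp only [map_mul, sub_mul, mul_sub, one_mul, mul_one]; abel
        rw [e, hLz _ ha _ hb, add_zero]
        exact add_mem ha hb
      inv_mem' := fun {a} ha => by
        show ρ a⁻¹ - 1 ∈ L
        have : ρ a⁻¹ = 1 - (ρ a - 1) := by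
          have h1 : ρ a⁻¹ * ρ a = 1 := by rw [← map_mul, inv_mul_cancel, map_one]
          calc ρ a⁻¹ = ρ a⁻¹ * (ρ a * (1 - (ρ a - 1))) := by
                have h0 : ρ a * (1 - (ρ a - 1)) = 1 - (ρ a - 1) * (ρ a - 1) := by
                  simp only [sub_mul, mul_sub, one_mul, mul_one]; abel
                rw [h0, hLz _ ha _ ha, sub_zero, mul_one]
            _ = _ := by rw [← mul_assoc, h1, one_mul]
        rw [this, sub_sub_cancel_left]
        exact neg_mem ha }
  have hA : ∀ {a}, a ∈ A ↔ ρ a - 1 ∈ L := Iff.rfl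
  have hAN : A ≤ N := fun a ha => by
    intro x
    have hc : ∀ z ∈ L, ρ a * z * ρ a⁻¹ = z := by
      intro z hz
      have e : ρ a * z = z * ρ a := by
        have e1 := hLz _ ha _ hz
        have e2 := hLz _ hz _ ha
        rw [sub_mul, one_mul, sub_eq_zero] at e1
        rw [mul_sub, mul_one, sub_eq_zero] at e2
        rw [e1, e2]
      rw [e, mul_assoc, ← map_mul, mul_inv_cancel, map_one, mul_one]
    refine ⟨fun hx => by rw [hc x hx]; exact hx, fun hx => ?_⟩
    have h2 := hc _ hx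
    have h3 : ρ a * x * ρ a⁻¹ = x := by
      have := congrArg (fun z => ρ a⁻¹ * z * ρ a) h2
      simp only [← mul_assoc, ← map_mul, inv_mul_cancel, map_one, one_mul] at this
      simp only [mul_assoc, ← map_mul, inv_mul_cancel, map_one, mul_one] at this
      simpa [mul_assoc] using this
    rwa [← h3]
  have hAK : A ≤ K := fun a ha => Subgroup.subset_closure ⟨⟨1, a, ha, by simp⟩, hAN ha⟩
  -- conjugates of `A` by powers of `d` lie in `K`
  have hAj : ∀ j ∈ Subgroup.zpowers d, ∀ a ∈ A, j * a * j⁻¹ ∈ N := fun j hj a ha =>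
    hKN ((Subgroup.mem_normalizer_iff.mp (Subgroup.zpowers_le.mpr hdn hj) a).mp (hAK ha))
  let Ls : Γ → Submodule (ZMod p) End' := fun j =>
    L.map ((LinearMap.mulLeft (ZMod p) (ρ j)).comp (LinearMap.mulRight (ZMod p) (ρ j⁻¹)))
  have hLs : ∀ {j z}, z ∈ Ls j ↔ ∃ x ∈ L, z = ρ j * x * ρ j⁻¹ := by
    intro j z
    simp [Ls, Submodule.mem_map, mul_assoc, eq_comm]
  let C := Submodule.span (ZMod p) (Set.range ρ)
  have hC : ∀ g, ρ g ∈ C := fun g => Submodule.subset_span ⟨g, rfl⟩
  let js : Set Γ := {1, d, d⁻¹}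
  have hjs : ∀ j ∈ js, j ∈ Subgroup.zpowers d := by
    rintro j (rfl | rfl | rfl)
    · exact one_mem _
    · exact Subgroup.mem_zpowers _
    · exact inv_mem (Subgroup.mem_zpowers _)
  -- the group generated by the three conjugates
  let U : Subgroup Γ := Subgroup.closure {u | ∃ j ∈ js, ∃ a ∈ A, u = j * a * j⁻¹}
  have hUL : ∀ u ∈ U, ∀ j ∈ Subgroup.zpowers d, ∀ z ∈ Ls j, ρ u * z * ρ u⁻¹ ∈ Ls j := by
    intro u hu j hj z hz
    have hju : j⁻¹ * u * j ∈ N := by
      have hle : U ≤ N.comap (MulAut.conj j⁻¹).toMonoidHom := by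
        refine (Subgroup.closure_le _).mpr ?_
        rintro _ ⟨i, hi, a, ha, rfl⟩
        show j⁻¹ * (i * a * i⁻¹) * j⁻¹⁻¹ ∈ N
        have := hAj _ (mul_mem (inv_mem hj) (hjs i hi)) a ha
        rwa [mul_inv_rev, show j⁻¹ * i * a * (i⁻¹ * j⁻¹⁻¹) = j⁻¹ * (i * a * i⁻¹) * j⁻¹⁻¹ by group] at this
      have := hle hu
      simpa using this
    obtain ⟨x, hx, rfl⟩ := hLs.mp hz
    refine hLs.mpr ⟨_, (hju x).mp hx, ?_⟩
    rw [← mul_assoc, ← mul_assoc, ← map_mul, mul_assoc _ (ρ j⁻¹), ← map_mul]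
    rw [← mul_assoc (ρ j), ← mul_assoc (ρ j), ← map_mul, mul_assoc _ (ρ _) (ρ j⁻¹), ← map_mul]
    congr 2 <;> group
  let CU := Submodule.span (ZMod p) (ρ '' (U : Set Γ))
  let T : Γ → Submodule (ZMod p) End' := fun j => Ls j * CU
  have hCU : CU * CU ≤ CU := by
    rw [Submodule.span_mul_span]
    refine Submodule.span_mono ?_
    rintro _ ⟨_, ⟨u, hu, rfl⟩, _, ⟨v, hv, rfl⟩, rfl⟩
    exact ⟨u * v, mul_mem hu hv, map_mul ρ u v⟩
  have hone : (1 : End') ∈ CU := Submodule.subset_span ⟨1, one_mem _, map_one ρ⟩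
  have hswap : ∀ j ∈ js, CU * Ls j ≤ Ls j * CU := by
    intro j hj
    refine Submodule.mul_le.mpr fun c hc z hz => ?_
    induction hc using Submodule.span_induction with
    | mem c hc =>
      obtain ⟨u, hu, rfl⟩ := hc
      have e : ρ u * z = ρ u * z * ρ u⁻¹ * ρ u := by rw [mul_assoc _ (ρ u⁻¹), ← map_mul, inv_mul_cancel, map_one, mul_one]
      rw [e]
      exact Submodule.mul_mem_mul (hUL u hu j (hjs j hj) z hz) (Submodule.subset_span ⟨u, hu, rfl⟩)
    | zero => rw [zero_mul]; exact zero_mem _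
    | add a b _ _ ha hb => rw [add_mul]; exact add_mem ha hb
    | smul c a _ ha => rw [smul_mul_assoc]; exact Submodule.smul_mem _ _ ha
  have hLC : ∀ j ∈ js, Ls j ≤ CU := by
    intro j hj z hz
    obtain ⟨x, hx, rfl⟩ := hLs.mp hz
    obtain ⟨a, ha⟩ := hLg x hx
    have haA : a ∈ A := by rw [hA, ha, add_sub_cancel_left]; exact hx
    have hu : j * a * j⁻¹ ∈ U := Subgroup.subset_closure ⟨j, hj, a, haA, rfl⟩
    have e : ρ j * x * ρ j⁻¹ = ρ (j * a * j⁻¹) - 1 := by
      rw [map_mul, map_mul, ha, mul_add, add_mul, mul_one, ← map_mul ρ j j⁻¹, mul_inv_cancel, map_one,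
        add_sub_cancel_left]
    rw [e]
    exact sub_mem (Submodule.subset_span ⟨_, hu, rfl⟩) hone
  have hTC : ∀ j ∈ js, T j ≤ CU := fun j hj => (mulL (hLC j hj)).trans hCU
  have hTr : ∀ j, T j * CU ≤ T j := fun j => by
    simp only [T, mul_assoc]
    exact mulR hCU
  have hTl : ∀ j ∈ js, CU * T j ≤ T j := fun j hj => by
    simp only [T, ← mul_assoc]
    refine (mulL (hswap j hj)).trans ?_
    rw [mul_assoc]
    exact mulR hCU
  have hTT : ∀ i ∈ js, ∀ j ∈ js, T i * T j ≤ T i ⊓ T j := fun i hi j hj =>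
    le_inf ((mulR (hTC j hj)).trans (hTr i))
      ((mulL (hTC i hi)).trans (hTl j hj))
  have hT0 : ∀ j ∈ js, T j * T j = ⊥ := by
    intro j hj
    refine le_bot_iff.mp ?_
    calc T j * T j = Ls j * (CU * Ls j) * CU := by simp only [T, mul_assoc]
      _ ≤ Ls j * (Ls j * CU) * CU := mulL (mulR (hswap j hj))
      _ = Ls j * Ls j * (CU * CU) := by simp only [mul_assoc]
      _ ≤ ⊥ := by
        have : Ls j * Ls j = ⊥ := by
          refine le_bot_iff.mp (Submodule.mul_le.mpr fun z hz w hw => ?_)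
          obtain ⟨x, hx, rfl⟩ := hLs.mp hz
          obtain ⟨x', hx', rfl⟩ := hLs.mp hw
          rw [Submodule.mem_bot, show ρ j * x * ρ j⁻¹ * (ρ j * x' * ρ j⁻¹) = ρ j * (x * (ρ j⁻¹ * ρ j) * x') * ρ j⁻¹ by
            simp only [mul_assoc], ← map_mul, inv_mul_cancel, map_one, mul_one, hLz _ hx _ hx', mul_zero, zero_mul]
        rw [this, Submodule.bot_mul]
  have m1 : (1 : Γ) ∈ js := Or.inl rfl
  have m2 : d ∈ js := Or.inr (Or.inl rfl)
  have m3 : d⁻¹ ∈ js := Or.inr (Or.inr rfl)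
  set S := T 1 ⊔ (T d ⊔ T d⁻¹) with hS
  have hS4 : S ^ 4 = ⊥ := three_pow_four (hT0 _ m1) (hT0 _ m2) (hT0 _ m3) (hTT _ m1 _ m2)
    ((hTT _ m2 _ m1).trans (le_of_eq (inf_comm _ _))) (hTT _ m1 _ m3) ((hTT _ m3 _ m1).trans (le_of_eq (inf_comm _ _)))
    (hTT _ m2 _ m3) ((hTT _ m3 _ m2).trans (le_of_eq (inf_comm _ _)))
  have hSC : S * CU ≤ S := by
    simp only [hS, Submodule.sup_mul]
    exact sup_le_sup (hTr _) (sup_le_sup (hTr _) (hTr _))
  have hSle : S ≤ CU := sup_le (hTC _ m1) (sup_le (hTC _ m2) (hTC _ m3))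
  have hTS : ∀ j ∈ js, T j ≤ S := by
    rintro j (rfl | rfl | rfl)
    · exact le_sup_left
    · exact le_sup_left.trans le_sup_right
    · exact le_sup_right.trans le_sup_right
  have hLS : ∀ j ∈ js, Ls j ≤ S := fun j hj z hz =>
    hTS j hj (by simpa using Submodule.mul_mem_mul hz hone)
  have hmul : ∀ a ∈ S, ∀ b ∈ S, a * b ∈ S := fun a ha b hb => hSC (Submodule.mul_mem_mul ha (hSle hb))
  have h4 : ∀ a ∈ S, ∀ b ∈ S, ∀ c ∈ S, ∀ e ∈ S, a * (b * (c * e)) = 0 := by
    intro a ha b hb c hc e he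
    have := Submodule.mul_mem_mul ha (Submodule.mul_mem_mul hb (Submodule.mul_mem_mul hc he))
    rwa [show S * (S * (S * S)) = S ^ 4 by simp [pow_succ, mul_assoc], hS4, Submodule.mem_bot] at this
  set Us : Set End' := ρ '' (U : Set Γ)
  have hUone : (1 : End') ∈ Us := ⟨1, one_mem _, map_one ρ⟩
  have hUmul : ∀ u ∈ Us, ∀ v ∈ Us, u * v ∈ Us := by
    rintro _ ⟨a, ha, rfl⟩ _ ⟨b, hb, rfl⟩
    exact ⟨a * b, mul_mem ha hb, map_mul ρ a b⟩
  have hUinv : ∀ u ∈ Us, ∀ v, u * v = 1 → v ∈ Us := by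
    rintro _ ⟨a, ha, rfl⟩ v hv
    exact ⟨a⁻¹, inv_mem ha, by rw [← mul_one (ρ a⁻¹), ← hv, ← mul_assoc, ← map_mul, inv_mul_cancel, map_one, one_mul]⟩
  set Λ := logSubmodule S hmul h4 Us hUone hUmul hUinv hp
  have hLΛ : ∀ j ∈ js, Ls j ≤ Λ := by
    intro j hj z hz
    refine ⟨hLS j hj hz, ?_⟩
    obtain ⟨x, hx, rfl⟩ := hLs.mp hz
    obtain ⟨a, ha⟩ := hLg x hx
    have hzz : ρ j * x * ρ j⁻¹ * (ρ j * x * ρ j⁻¹) = 0 := by
      rw [show ρ j * x * ρ j⁻¹ * (ρ j * x * ρ j⁻¹) = ρ j * (x * (ρ j⁻¹ * ρ j) * x) * ρ j⁻¹ by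
        simp only [mul_assoc], ← map_mul, inv_mul_cancel, map_one, mul_one, hLz _ hx _ hx, mul_zero, zero_mul]
    rw [ex_of_sq_zero hzz]
    refine ⟨j * a * j⁻¹, Subgroup.subset_closure ⟨j, hj, a, by rw [hA, ha, add_sub_cancel_left]; exact hx, rfl⟩, ?_⟩
    rw [map_mul, map_mul, ha, mul_add, add_mul, mul_one, ← map_mul ρ j j⁻¹, mul_inv_cancel, map_one]
  have h2 := two_ne (p := p) hp
  have hpm : ∀ x ∈ L, y * x - x * y ∈ Λ ∧ y * x * y ∈ Λ := by
    intro x hx
    have e0 : x ∈ Λ := hLΛ 1 m1 (hLs.mpr ⟨x, hx, by simp⟩)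
    have e1 : x + (y * x - x * y) - y * x * y ∈ Λ := by
      refine hLΛ d m2 (hLs.mpr ⟨x, hx, ?_⟩)
      rw [hρd, hρd']
      simp only [add_mul, one_mul, mul_sub, mul_one]
      abel
    have e2 : x - (y * x - x * y) - y * x * y ∈ Λ := by
      refine hLΛ d⁻¹ m3 (hLs.mpr ⟨x, hx, ?_⟩)
      rw [inv_inv, hρd, hρd']
      simp only [sub_mul, one_mul, mul_add, mul_one]
      abel
    constructor
    · have := Λ.smul_mem (2 : ZMod p)⁻¹ (sub_mem e1 e2)
      convert this using 1
      match_scalars <;> field_simp <;> ring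
    · have := sub_mem e0 (Λ.smul_mem (2 : ZMod p)⁻¹ (add_mem e1 e2))
      convert this using 1
      match_scalars <;> field_simp <;> ring
  have hlimΛ : lim y L ≤ Λ :=
    lim_le_of_closed (fun x hx => hLΛ 1 m1 (hLs.mpr ⟨x, hx, by simp⟩)) (fun x hx => (hpm x hx).1) fun x hx => (hpm x hx).2
  have hlimz : ∀ a ∈ lim y L, ∀ b ∈ lim y L, a * b = 0 := fun a ha b hb => lim_mul_eq_zero hy hLz ha hb
  have hlim : IsLO ρ (lim y L) := by
    refine ⟨fun h => hL0 ?_, hlimz, fun z hz => ?_, offender_lim hy hLc⟩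
    · have := finrank_le_finrank_lim hy L
      rw [h, finrank_bot, Nat.le_zero] at this
      exact Submodule.finrank_eq_zero.mp this
    · have := (hlimΛ hz).2
      rw [ex_of_sq_zero (hlimz z hz z hz)] at this
      obtain ⟨g, -, hg⟩ := this
      exact ⟨g, hg⟩
  -- the score grows
  have hLJ : L ≤ aug ρ ^ 1 := by
    intro x hx
    obtain ⟨a, ha⟩ := hLg x hx
    rw [pow_one, show x = ρ a - 1 by rw [ha, add_sub_cancel_left]]
    exact sub_one_mem_aug ρ a
  have hJ : ∀ j, ∀ z ∈ aug ρ ^ (j + 1),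
      y * z - z * y ∈ aug ρ ^ (j + 2) ∧ y * z * y ∈ aug ρ ^ (j + 2) := by
    intro j z hz
    have hy1 : y ∈ aug ρ := sub_one_mem_aug ρ d
    have a1 : y * z ∈ aug ρ ^ (j + 2) := by rw [pow_succ']; exact Submodule.mul_mem_mul hy1 hz
    have a2 : z * y ∈ aug ρ ^ (j + 2) := by rw [pow_succ]; exact Submodule.mul_mem_mul hz hy1
    refine ⟨sub_mem a1 a2, ?_⟩
    have a3 := Submodule.mul_mem_mul a1 hy1
    rw [pow_succ, mul_assoc] at a3
    have := mulR (P := aug ρ ^ (j + 1)) (aug_mul_aug ρ) a3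
    rwa [← pow_succ] at this
  have hdesc : ∀ j, aug ρ ^ (j + 1 + 1) ≤ aug ρ ^ (j + 1) := fun j => by
    rw [pow_succ, pow_succ, mul_assoc]
    exact mulR (aug_mul_aug ρ)
  -- an element moved out of `L`, as deep as possible
  obtain ⟨x₀, hx₀, hx₀'⟩ : ∃ x ∈ L, y * x - x * y ∉ L := by
    by_contra hcon
    push Not at hcon
    apply hdN
    have hfwd : ∀ x ∈ L, ρ d * x * ρ d⁻¹ ∈ L := by
      intro x hx
      have h3 := hcon x hx
      have h4' := hcon _ h3
      have e : y * (y * x - x * y) - (y * x - x * y) * y = -((2 : ZMod p) • (y * x * y)) := by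
        simp only [mul_sub, sub_mul, ← mul_assoc, hy, zero_mul, mul_assoc x y y, mul_zero, two_smul]
        abel
      have h5 : y * x * y ∈ L := by
        have := L.smul_mem (2 : ZMod p)⁻¹ (neg_mem h4')
        rwa [e, neg_neg, smul_smul, inv_mul_cancel₀ h2, one_smul] at this
      have := sub_mem (add_mem hx h3) h5
      convert this using 1
      rw [hρd, hρd']
      simp only [add_mul, one_mul, mul_sub, mul_one]
      abel
    intro x
    refine ⟨hfwd x, fun hx => ?_⟩
    let φ : ↥L → ↥L := fun z => ⟨_, hfwd z z.2⟩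
    have hinj : Function.Injective φ := fun a b h => by
      have := congrArg (fun z : ↥L => ρ d⁻¹ * (z : End') * ρ d) h
      simp only [φ, mul_assoc, ← map_mul, inv_mul_cancel, map_one, mul_one] at this
      simp only [← mul_assoc, ← map_mul, inv_mul_cancel, map_one, one_mul] at this
      exact Subtype.ext this
    obtain ⟨⟨x', hx'⟩, he⟩ := hinj.surjective_of_finite (Equiv.refl _) ⟨_, hx⟩
    have := congrArg (fun z : ↥L => ρ d⁻¹ * (z : End') * ρ d) he
    simp only [φ, mul_assoc, ← map_mul, inv_mul_cancel, map_one, mul_one] at this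
    simp only [← mul_assoc, ← map_mul, inv_mul_cancel, map_one, one_mul] at this
    rwa [← this]
  let P : ℕ → Prop := fun j => ∃ x ∈ L ⊓ aug ρ ^ (j + 1), y * x - x * y ∉ L
  have hP0 : P 0 := ⟨x₀, ⟨hx₀, hLJ hx₀⟩, hx₀'⟩
  have hPm : ¬ P m := by
    rintro ⟨x, ⟨-, hx⟩, hx'⟩
    rw [hm] at hx
    apply hx'
    rw [(Submodule.mem_bot _).mp hx]
    simp
  obtain ⟨j, hPj, hPj'⟩ : ∃ j, P j ∧ ¬ P (j + 1) := by
    by_contra hcon
    push Not at hcon
    exact hPm (Nat.rec hP0 (fun n ih => hcon n ih) m)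
  obtain ⟨x, hxm, hx'⟩ := hPj
  set W' := L ⊓ aug ρ ^ (j + 1 + 1) with hW'
  have hW1 : ∀ z ∈ W', y * z - z * y ∈ W' := fun z hz =>
    ⟨by_contra fun h => hPj' ⟨z, hz, h⟩, hdesc _ ((hJ (j + 1) z hz.2).1)⟩
  have hW2 : ∀ z ∈ W', y * z * y ∈ W' := by
    intro z hz
    have h3 := hW1 _ (hW1 z hz)
    have e : y * (y * z - z * y) - (y * z - z * y) * y = -((2 : ZMod p) • (y * z * y)) := by
      simp only [mul_sub, sub_mul, ← mul_assoc, hy, zero_mul, mul_assoc z y y, mul_zero, two_smul]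
      abel
    have := W'.smul_mem (2 : ZMod p)⁻¹ (neg_mem h3)
    rwa [e, neg_neg, smul_smul, inv_mul_cancel₀ h2, one_smul] at this
  have hmono : ∀ i, Module.finrank (ZMod p) ↥(L ⊓ aug ρ ^ (i + 1)) ≤
      Module.finrank (ZMod p) ↥(lim y L ⊓ aug ρ ^ (i + 1)) := fun i =>
    (finrank_le_finrank_lim hy _).trans (Submodule.finrank_mono (le_inf (lim_mono y inf_le_left)
      (lim_le_of_closed inf_le_right (fun z hz => hdesc i (hJ i z hz.2).1)
        (fun z hz => hdesc i (hJ i z hz.2).2))))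
  obtain ⟨c, hc1, hc2, hc3⟩ := exists_new_mem (L := L) (W := W') (F := aug ρ ^ (j + 1 + 1)) inf_le_left hxm.1
    (hJ j x hxm.2).1 (hJ j x hxm.2).2 (fun h => hx' h.1) hW1 hW2 hy
  have hWlim : W' ≤ lim y L ⊓ aug ρ ^ (j + 1 + 1) := le_inf
    (fun w hw => lim_mono y inf_le_left (mem_lim_of_invariant hy hW1 hW2 hw)) inf_le_right
  have hlt : Module.finrank (ZMod p) ↥W' < Module.finrank (ZMod p) ↥(lim y L ⊓ aug ρ ^ (j + 1 + 1)) :=
    Submodule.finrank_lt_finrank_of_lt (lt_of_le_of_ne hWlim fun h => hc3 (h.symm ▸ ⟨hc1, hc2⟩))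
  have hjm : j + 1 < m + 1 := by
    by_contra hge
    have hzero : aug ρ ^ (j + 1 + 1) = ⊥ := by
      obtain ⟨i, hi⟩ : ∃ i, j + 1 + 1 = m + 1 + i := ⟨j + 1 - m, by omega⟩
      rw [hi, pow_add, hm, Submodule.bot_mul]
    apply hc3
    have : c = 0 := (Submodule.mem_bot _).mp (hzero ▸ hc2)
    rw [this]; exact zero_mem _
  have : score L < score (lim y L) := Finset.sum_lt_sum (fun i _ => hmono i)
    ⟨j + 1, Finset.mem_range.mpr hjm, hlt⟩
  exact absurd (hmax ⟨lim y L, hlim⟩) (not_le.mpr this)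

end Cfsg.Agent.Transfer.QuadLimit
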