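import Mathlib

/-!
# Logarithms in a four-step nilpotent unipotent group

If `S` is a multiplicatively closed subspace of an algebra over `ZMod p` (`p ≥ 5`) with all products of
four elements zero, and `U` is a group of units inside `1 + S`, then the logarithms of `U` form a subspace.
-/

set_option autoImplicit false
set_option linter.unusedSimpArgs false

namespace Cfsg.Agent.Transfer.QuadLimit

variable {p : ℕ} [Fact p.Prime] {R : Type*} [Ring R] [Algebra (ZMod p) R]

/-- The exponential, truncated after the cubic term. -/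
def ex (w : R) : R := 1 + w + (2 : ZMod p)⁻¹ • (w * w) + ((2 : ZMod p)⁻¹ * (3 : ZMod p)⁻¹) • (w * (w * w))

/-- The commutator in an algebra. -/
def br (a b : R) : R := a * b - b * a

theorem two_ne (hp : 5 ≤ p) : (2 : ZMod p) ≠ 0 := by
  intro h
  have := (CharP.cast_eq_zero_iff (ZMod p) p 2).mp (by exact_mod_cast h)
  have := Nat.le_of_dvd (by norm_num) this
  omega

theorem three_ne (hp : 5 ≤ p) : (3 : ZMod p) ≠ 0 := by
  intro h
  have := (CharP.cast_eq_zero_iff (ZMod p) p 3).mp (by exact_mod_cast h)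
  have := Nat.le_of_dvd (by norm_num) this
  omega

section

variable (S : Submodule (ZMod p) R) (hmul : ∀ a ∈ S, ∀ b ∈ S, a * b ∈ S)
  (h4 : ∀ a ∈ S, ∀ b ∈ S, ∀ c ∈ S, ∀ d ∈ S, a * (b * (c * d)) = 0)
  (U : Set R) (hUone : (1 : R) ∈ U) (hUmul : ∀ u ∈ U, ∀ v ∈ U, u * v ∈ U)
  (hUinv : ∀ u ∈ U, ∀ v, u * v = 1 → v ∈ U)

include h4 in
theorem four5 {a b c d : R} (ha : a ∈ S) (hb : b ∈ S) (hc : c ∈ S) (hd : d ∈ S) (r : R) :
    a * (b * (c * (d * r))) = 0 := by
  rw [show a * (b * (c * (d * r))) = a * (b * (c * d)) * r by simp only [mul_assoc], h4 a ha b hb c hc d hd,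
    zero_mul]

include h4 in
theorem ex_add_of_commute (hp : 5 ≤ p) {w z : R} (hw : w ∈ S) (hz : z ∈ S) (hc : w * z = z * w) :
    ex (p := p) w * ex (p := p) z = ex (p := p) (w + z) := by
  have h2 := two_ne hp
  have h3 := three_ne hp
  have z4 := h4
  have z5 := @four5 p _ R _ _ S h4
  have hc' : ∀ r, z * (w * r) = w * (z * r) := fun r => by rw [← mul_assoc, ← hc, mul_assoc]
  simp only [ex, mul_add, add_mul, one_mul, mul_one, smul_mul_assoc, mul_smul_comm, smul_smul, smul_add,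
    mul_assoc, ← hc, hc', z4 w hw w hw w hw w hw, z4 w hw w hw w hw z hz, z4 w hw w hw z hz z hz,
    z4 w hw z hz z hz z hz, z4 z hz z hz z hz z hz, z5 hw hw hw hw, z5 hw hw hw hz, z5 hw hw hz hz,
    z5 hw hz hz hz, z5 hz hz hz hz, mul_zero, smul_zero, add_zero]
  match_scalars <;> field_simp <;> ring

include h4 in
theorem ex_mul (hp : 5 ≤ p) {a b : R} (ha : a ∈ S) (hb : b ∈ S) :
    ex (p := p) a * ex (p := p) b = ex (p := p) (a + b + (2 : ZMod p)⁻¹ • br a b +
      ((2 : ZMod p)⁻¹ * (2 : ZMod p)⁻¹ * (3 : ZMod p)⁻¹) • (br a (br a b) + br b (br b a))) := by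
  have h2 := two_ne hp
  have h3 := three_ne hp
  have z4 := h4
  have z5 := @four5 p _ R _ _ S h4
  simp only [ex, br, mul_add, add_mul, mul_sub, sub_mul, one_mul, mul_one, smul_mul_assoc, mul_smul_comm,
    smul_smul, smul_add, smul_sub, mul_assoc,
    z4 a ha a ha a ha a ha, z4 a ha a ha a ha b hb, z4 a ha a ha b hb a ha, z4 a ha a ha b hb b hb,
    z4 a ha b hb a ha a ha, z4 a ha b hb a ha b hb, z4 a ha b hb b hb a ha, z4 a ha b hb b hb b hb,
    z4 b hb a ha a ha a ha, z4 b hb a ha a ha b hb, z4 b hb a ha b hb a ha, z4 b hb a ha b hb b hb,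
    z4 b hb b hb a ha a ha, z4 b hb b hb a ha b hb, z4 b hb b hb b hb a ha, z4 b hb b hb b hb b hb,
    z5 ha ha ha ha, z5 ha ha ha hb, z5 ha ha hb ha, z5 ha ha hb hb,
    z5 ha hb ha ha, z5 ha hb ha hb, z5 ha hb hb ha, z5 ha hb hb hb,
    z5 hb ha ha ha, z5 hb ha ha hb, z5 hb ha hb ha, z5 hb ha hb hb,
    z5 hb hb ha ha, z5 hb hb ha hb, z5 hb hb hb ha, z5 hb hb hb hb,
    mul_zero, smul_zero, add_zero, sub_zero, zero_add, zero_sub, neg_zero]
  match_scalars <;> field_simp <;> ring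

/-- The logarithms of `U`. -/
def logs : Set R := {w | w ∈ S ∧ ex (p := p) w ∈ U}

include hmul in
theorem br_mem {a b : R} (ha : a ∈ S) (hb : b ∈ S) : br a b ∈ S :=
  sub_mem (hmul a ha b hb) (hmul b hb a ha)

include hUone in
theorem zero_mem_logs : (0 : R) ∈ logs S U := ⟨zero_mem _, by simpa [ex] using hUone⟩

include h4 hUmul in
theorem add_mem_of_commute (hp : 5 ≤ p) {w z : R} (hw : w ∈ logs S U) (hz : z ∈ logs S U) (hc : w * z = z * w) :
    w + z ∈ logs S U :=
  ⟨add_mem hw.1 hz.1, by rw [← ex_add_of_commute S h4 hp hw.1 hz.1 hc]; exact hUmul _ hw.2 _ hz.2⟩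

include h4 hUinv in
theorem neg_mem_logs (hp : 5 ≤ p) {w : R} (hw : w ∈ logs S U) : -w ∈ logs S U := by
  refine ⟨neg_mem hw.1, hUinv _ hw.2 _ ?_⟩
  rw [ex_add_of_commute S h4 hp hw.1 (neg_mem hw.1) (by rw [mul_neg, neg_mul]), add_neg_cancel]
  simp [ex]

include h4 hUone hUmul in
theorem smul_mem_logs (hp : 5 ≤ p) (c : ZMod p) {w : R} (hw : w ∈ logs S U) : c • w ∈ logs S U := by
  have h : ∀ n : ℕ, n • w ∈ logs S U := by
    intro n
    induction n with
    | zero => rw [zero_smul]; exact zero_mem_logs S U hUone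
    | succ n ih =>
      rw [succ_nsmul]
      exact add_mem_of_commute S h4 U hUmul hp ih hw ((Commute.refl w).smul_left n)
  rw [← ZMod.natCast_zmod_val c, Nat.cast_smul_eq_nsmul]
  exact h _

end

/-- The logarithm of a product of two exponentials. -/
def bch (a b : R) : R := a + b + (2 : ZMod p)⁻¹ • br a b +
  ((2 : ZMod p)⁻¹ * (2 : ZMod p)⁻¹ * (3 : ZMod p)⁻¹) • (br a (br a b) + br b (br b a))

section

variable (S : Submodule (ZMod p) R) (hmul : ∀ a ∈ S, ∀ b ∈ S, a * b ∈ S)
  (h4 : ∀ a ∈ S, ∀ b ∈ S, ∀ c ∈ S, ∀ d ∈ S, a * (b * (c * d)) = 0)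
  (U : Set R) (hUone : (1 : R) ∈ U) (hUmul : ∀ u ∈ U, ∀ v ∈ U, u * v ∈ U)
  (hUinv : ∀ u ∈ U, ∀ v, u * v = 1 → v ∈ U)

include h4 in
theorem sup4 : S * (S * (S * S)) = ⊥ := by
  apply le_bot_iff.mp
  refine Submodule.mul_le.mpr fun a ha x hx => ?_
  refine Submodule.mul_induction_on hx (fun b hb y hy => ?_) fun x y h h' => by
    rw [mul_add]; exact add_mem h h'
  refine Submodule.mul_induction_on hy (fun c hc d hd => (Submodule.mem_bot _).mpr (h4 a ha b hb c hc d hd))
    fun x y h h' => by rw [mul_add, mul_add]; exact add_mem h h'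

include hmul in
theorem sq_le : S * S ≤ S := Submodule.mul_le.mpr hmul

theorem br_mem_sq {a b : R} (ha : a ∈ S) (hb : b ∈ S) : br a b ∈ S * S :=
  sub_mem (Submodule.mul_mem_mul ha hb) (Submodule.mul_mem_mul hb ha)

theorem br_mem_cube {a q : R} (ha : a ∈ S) (hq : q ∈ S * S) : br a q ∈ S * (S * S) := by
  refine sub_mem (Submodule.mul_mem_mul ha hq) ?_
  rw [← mul_assoc]
  exact Submodule.mul_mem_mul hq ha

include h4 in
theorem br_cube {a l : R} (ha : a ∈ S) (hl : l ∈ S * (S * S)) : br a l = 0 ∧ br l a = 0 := by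
  have h1 : a * l = 0 := (Submodule.mem_bot _).mp ((sup4 S h4) ▸ Submodule.mul_mem_mul ha hl)
  have h2 : l * a = 0 := by
    have := Submodule.mul_mem_mul hl ha
    rw [show S * (S * S) * S = S * (S * (S * S)) by simp only [mul_assoc], sup4 S h4] at this
    exact (Submodule.mem_bot _).mp this
  simp [br, h1, h2]

include h4 in
theorem br_sq_sq {u v : R} (hu : u ∈ S * S) (hv : v ∈ S * S) : br u v = 0 := by
  have h1 := Submodule.mul_mem_mul hu hv
  have h2 := Submodule.mul_mem_mul hv hu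
  rw [show S * S * (S * S) = S * (S * (S * S)) by simp only [mul_assoc], sup4 S h4, Submodule.mem_bot] at h1 h2
  simp [br, h1, h2]

theorem br_add (a b c : R) : br a (b + c) = br a b + br a c := by simp [br, mul_add, add_mul]; abel

theorem add_br (a b c : R) : br (a + b) c = br a c + br b c := by simp [br, mul_add, add_mul]; abel

theorem br_neg (a b : R) : br a (-b) = - br a b := by simp [br]; abel

theorem neg_br (a b : R) : br (-a) b = - br a b := by simp [br]; abel

theorem br_smul (c : ZMod p) (a b : R) : br a (c • b) = c • br a b := by simp [br, smul_sub]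

theorem smul_br (c : ZMod p) (a b : R) : br (c • a) b = c • br a b := by simp [br, smul_sub]

include hmul h4 hUmul in
theorem bch_mem (hp : 5 ≤ p) {a b : R} (ha : a ∈ logs S U) (hb : b ∈ logs S U) :
    bch (p := p) a b ∈ logs S U := by
  refine ⟨?_, by rw [bch, ← ex_mul S h4 hp ha.1 hb.1]; exact hUmul _ ha.2 _ hb.2⟩
  refine add_mem (add_mem (add_mem ha.1 hb.1) (S.smul_mem _ (br_mem S hmul ha.1 hb.1))) (S.smul_mem _ ?_)
  exact add_mem (br_mem S hmul ha.1 (br_mem S hmul ha.1 hb.1)) (br_mem S hmul hb.1 (br_mem S hmul hb.1 ha.1))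

include hmul h4 hUone hUmul hUinv in
theorem br_mem_logs_deep (hp : 5 ≤ p) {a h : R} (ha : a ∈ logs S U) (hh : h ∈ logs S U) (hd : h ∈ S * S) :
    br a h ∈ logs S U ∧ a + h ∈ logs S U := by
  have h2 := two_ne hp
  have he : br a h ∈ S * (S * S) := br_mem_cube S ha.1 hd
  have heS : br a h ∈ S := br_mem S hmul ha.1 hh.1
  have z1 : br a (br a h) = 0 := (br_cube S h4 ha.1 he).1
  have hswap : br h a = - br a h := by simp [br]
  have z2 : br h (br h a) = 0 := by rw [hswap, br_neg, (br_cube S h4 hh.1 he).1, neg_zero]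
  have e1 : bch (p := p) a h = a + h + (2 : ZMod p)⁻¹ • br a h := by
    rw [bch, z1, z2, add_zero, smul_zero, add_zero]
  have e2 : bch (p := p) (-a) (-h) = -(a + h) + (2 : ZMod p)⁻¹ • br a h := by
    have : br (-a) (-h) = br a h := by rw [neg_br, br_neg, neg_neg]
    rw [bch, show br (-a) (br (-a) (-h)) = 0 by rw [this, neg_br, z1, neg_zero],
      show br (-h) (br (-h) (-a)) = 0 by rw [show br (-h) (-a) = br h a by rw [neg_br, br_neg, neg_neg], neg_br, z2, neg_zero],
      this]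
    simp; abel
  have m1 := bch_mem S hmul h4 U hUmul hp ha hh
  have m2 := bch_mem S hmul h4 U hUmul hp (neg_mem_logs S h4 U hUinv hp ha) (neg_mem_logs S h4 U hUinv hp hh)
  have m3 := bch_mem S hmul h4 U hUmul hp m1 m2
  set e := (2 : ZMod p)⁻¹ • br a h with hedef
  have hee : e ∈ S * (S * S) := Submodule.smul_mem _ _ he
  have heS' : e ∈ S := S.smul_mem _ heS
  have z3 : br (a + h + e) (-(a + h) + e) = 0 := by
    rw [br_add, add_br, br_neg, br_neg, (br_cube S h4 (add_mem ha.1 hh.1) hee).2]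
    rw [show br (a + h) (a + h) = 0 by simp [br], (br_cube S h4 (add_mem (add_mem ha.1 hh.1) heS') hee).1]
    simp
  have e3 : bch (p := p) (bch (p := p) a h) (bch (p := p) (-a) (-h)) = br a h := by
    have hsw : br (-(a + h) + e) (a + h + e) = 0 := by
      have : br (-(a + h) + e) (a + h + e) = - br (a + h + e) (-(a + h) + e) := by simp [br]
      rw [this, z3, neg_zero]
    rw [e1, e2, bch, z3, hsw]
    have h2e : e + e = br a h := by
      rw [hedef, ← add_smul, show (2 : ZMod p)⁻¹ + (2 : ZMod p)⁻¹ = 1 by field_simp; norm_num, one_smul]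
    rw [show ∀ x : R, br x 0 = 0 from fun x => by simp [br], show ∀ x : R, br x 0 = 0 from fun x => by simp [br],
      add_zero, smul_zero, smul_zero, add_zero, add_zero, ← h2e]
    abel
  have hbr : br a h ∈ logs S U := e3 ▸ m3
  refine ⟨hbr, ?_⟩
  have := add_mem_of_commute S h4 U hUmul hp m1
    (smul_mem_logs S h4 U hUone hUmul hp (-(2 : ZMod p)⁻¹) hbr) ?_
  · rwa [e1, neg_smul, ← sub_eq_add_neg, add_sub_cancel_right] at this
  · have := (br_cube S h4 m1.1 (Submodule.smul_mem _ (-(2 : ZMod p)⁻¹) he)).1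
    exact sub_eq_zero.mp this

include hmul h4 hUone hUmul hUinv in
theorem add_mem_logs (hp : 5 ≤ p) {a b : R} (ha : a ∈ logs S U) (hb : b ∈ logs S U) : a + b ∈ logs S U := by
  have h2 := two_ne hp
  set c := br a b with hcdef
  set k := ((2 : ZMod p)⁻¹ * (2 : ZMod p)⁻¹ * (3 : ZMod p)⁻¹)
  have hswap : br b a = - c := by simp [hcdef, br]
  have hc2 : c ∈ S * S := br_mem_sq S ha.1 hb.1
  have hcS : c ∈ S := br_mem S hmul ha.1 hb.1
  set l := br a c - br b c with hl
  have hl3 : l ∈ S * (S * S) := sub_mem (br_mem_cube S ha.1 hc2) (br_mem_cube S hb.1 hc2)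
  have hlS : l ∈ S := sub_mem (br_mem S hmul ha.1 hcS) (br_mem S hmul hb.1 hcS)
  set s := a + b with hs
  have hsS : s ∈ S := add_mem ha.1 hb.1
  have e1 : bch (p := p) a b = s + ((2 : ZMod p)⁻¹ • c + k • l) := by
    rw [bch, hswap, br_neg, ← sub_eq_add_neg, ← hl, add_assoc]
  have e2 : bch (p := p) (-a) (-b) = -s + ((2 : ZMod p)⁻¹ • c - k • l) := by
    have hc' : br (-a) (-b) = c := by rw [neg_br, br_neg, neg_neg]
    have hc'' : br (-b) (-a) = -c := by rw [neg_br, br_neg, neg_neg, hswap]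
    rw [bch, hc', hc'', neg_br, neg_br, br_neg, neg_neg, hl]
    simp only [smul_add, smul_sub, smul_neg, hs]
    abel
  have m1 := bch_mem S hmul h4 U hUmul hp ha hb
  have m2 := bch_mem S hmul h4 U hUmul hp (neg_mem_logs S h4 U hUinv hp ha) (neg_mem_logs S h4 U hUinv hp hb)
  have m3 := bch_mem S hmul h4 U hUmul hp m1 m2
  have hM : br (bch (p := p) a b) (bch (p := p) (-a) (-b)) = br s c := by
    rw [e1, e2]
    simp only [sub_eq_add_neg, br_add, add_br, br_neg, neg_br, br_smul, smul_br,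
      (br_cube S h4 hsS hl3).1, (br_cube S h4 hsS hl3).2, (br_cube S h4 hcS hl3).1, (br_cube S h4 hcS hl3).2,
      (br_cube S h4 hlS hl3).1]
    rw [show br s s = 0 by simp [br], br_sq_sq S h4 hc2 hc2, show br c s = - br s c by simp [br]]
    simp only [smul_zero, neg_zero, add_zero, zero_add, smul_neg, neg_neg]
    rw [← add_smul, show (2 : ZMod p)⁻¹ + (2 : ZMod p)⁻¹ = 1 by field_simp; norm_num, one_smul]
  set q := bch (p := p) (bch (p := p) a b) (bch (p := p) (-a) (-b)) with hq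
  have hsc : br s c ∈ S * (S * S) := br_mem_cube S hsS hc2
  have e3 : q = c + (2 : ZMod p)⁻¹ • br s c := by
    have hM' : br (bch (p := p) (-a) (-b)) (bch (p := p) a b) = - br s c := by rw [← hM]; simp [br]
    show bch (p := p) (bch (p := p) a b) (bch (p := p) (-a) (-b)) = _
    have z1 := (br_cube S h4 m1.1 hsc).1
    have z2 := (br_cube S h4 m2.1 hsc).1
    generalize hM1 : bch (p := p) a b = M1 at *
    generalize hM2 : bch (p := p) (-a) (-b) = M2 at *
    rw [bch, hM, hM', z1, br_neg, z2, neg_zero, add_zero, smul_zero, add_zero, e1, e2]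
    have : (2 : ZMod p)⁻¹ • c + (2 : ZMod p)⁻¹ • c = c := by
      rw [← add_smul, show (2 : ZMod p)⁻¹ + (2 : ZMod p)⁻¹ = 1 by field_simp; norm_num, one_smul]
    linear_combination (norm := abel) this
  have hq2 : q ∈ S * S := by
    rw [e3]
    refine add_mem hc2 (Submodule.smul_mem _ _ ?_)
    exact br_mem_sq S hsS hcS
  have hac : br a c ∈ logs S U := by
    have := (br_mem_logs_deep S hmul h4 U hUone hUmul hUinv hp ha m3 hq2).1
    rwa [e3, br_add, br_smul, (br_cube S h4 ha.1 hsc).1, smul_zero, add_zero] at this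
  have hbc : br b c ∈ logs S U := by
    have := (br_mem_logs_deep S hmul h4 U hUone hUmul hUinv hp hb m3 hq2).1
    rwa [e3, br_add, br_smul, (br_cube S h4 hb.1 hsc).1, smul_zero, add_zero] at this
  have comm3 : ∀ {w z : R}, w ∈ S → z ∈ S * (S * S) → w * z = z * w := fun hw hz =>
    sub_eq_zero.mp (br_cube S h4 hw hz).1
  have ha3 := br_mem_cube S ha.1 hc2
  have hb3 := br_mem_cube S hb.1 hc2
  have hc : c ∈ logs S U := by
    have t1 := add_mem_of_commute S h4 U hUmul hp m3
      (smul_mem_logs S h4 U hUone hUmul hp (-(2 : ZMod p)⁻¹) hac) (comm3 m3.1 (Submodule.smul_mem _ _ ha3))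
    have t2 := add_mem_of_commute S h4 U hUmul hp t1
      (smul_mem_logs S h4 U hUone hUmul hp (-(2 : ZMod p)⁻¹) hbc) (comm3 t1.1 (Submodule.smul_mem _ _ hb3))
    have e : q + (-(2 : ZMod p)⁻¹) • br a c + (-(2 : ZMod p)⁻¹) • br b c = c := by
      rw [e3, hs, add_br, smul_add, neg_smul, neg_smul]; abel
    rwa [e] at t2
  have hh : (-(2 : ZMod p)⁻¹) • c + (-k) • br a c + k • br b c ∈ logs S U := by
    have t1 := add_mem_of_commute S h4 U hUmul hp (smul_mem_logs S h4 U hUone hUmul hp (-(2 : ZMod p)⁻¹) hc)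
      (smul_mem_logs S h4 U hUone hUmul hp (-k) hac) (comm3 (S.smul_mem _ hcS) (Submodule.smul_mem _ _ ha3))
    exact add_mem_of_commute S h4 U hUmul hp t1 (smul_mem_logs S h4 U hUone hUmul hp k hbc)
      (comm3 t1.1 (Submodule.smul_mem _ _ hb3))
  have hh2 : (-(2 : ZMod p)⁻¹) • c + (-k) • br a c + k • br b c ∈ S * S :=
    add_mem (add_mem (Submodule.smul_mem _ _ hc2) (Submodule.smul_mem _ _ (br_mem_sq S ha.1 hcS)))
      (Submodule.smul_mem _ _ (br_mem_sq S hb.1 hcS))
  have := (br_mem_logs_deep S hmul h4 U hUone hUmul hUinv hp m1 hh hh2).2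
  have e : bch (p := p) a b + ((-(2 : ZMod p)⁻¹) • c + (-k) • br a c + k • br b c) = s := by
    rw [e1, hl, smul_sub, neg_smul, neg_smul]; abel
  rwa [e] at this

/-- The logarithms of `U` as a subspace. -/
def logSubmodule (hp : 5 ≤ p) : Submodule (ZMod p) R where
  carrier := logs S U
  zero_mem' := zero_mem_logs S U hUone
  add_mem' := fun ha hb => add_mem_logs S hmul h4 U hUone hUmul hUinv hp ha hb
  smul_mem' := fun c _ hw => smul_mem_logs S h4 U hUone hUmul hp c hw

theorem ex_of_sq_zero {x : R} (h : x * x = 0) : ex (p := p) x = 1 + x := by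
  simp [ex, h]

end

end Cfsg.Agent.Transfer.QuadLimit
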